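import Cfsg.Agent.H930.SixBase

/-!
# `3.A₆`: five involutions (helper861)

`Cov m φ`, `|ker φ| = 3`: the lifts of order two `q₁, q₂, r, s, t` of `(0 2)(1 3)`, `(0 1)(2 3)`, `(0 1)(3 4)`,
`(1 2)(3 4)`, `(0 1)(4 5)` and their relations (`Rel`).

* `exists_rel`;
* `mem_of_fix` : the lifts of the even permutations fixing `5` lie in any subgroup with `q₁, q₂, r, s` and `ker φ`;
* `gi` : `φ (gi i) 5 = i`.
-/

set_option autoImplicit false
set_option linter.unusedSectionVars false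

namespace Cfsg.Agent.H861.SixT

open Cfsg Cfsg.Geo Matrix Equiv Cfsg.Agent.H915.LD Cfsg.Agent.H930.Six

universe u v

/-- the relations -/
structure Rel {G : Type v} [Group G] (φ : G →* Perm (Fin 6)) (q1 q2 r s t : G) : Prop where
  p1 : φ q1 = c[0, 2] * c[1, 3]
  p2 : φ q2 = c[0, 1] * c[2, 3]
  pr : φ r = c[0, 1] * c[3, 4]
  ps : φ s = c[1, 2] * c[3, 4]
  pt : φ t = c[0, 1] * c[4, 5]
  q11 : q1 * q1 = 1
  q22 : q2 * q2 = 1
  rr : r * r = 1
  ss : s * s = 1
  tt : t * t = 1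
  q12 : q1 * q2 = q2 * q1
  dq1 : r * s * q1 = q2 * (r * s)
  dq2 : r * s * q2 = q1 * q2 * (r * s)
  rq2 : r * q2 * r = q2 * r * q2
  rq0 : r * (q1 * q2) * r = q1 * (r * s * r) * q1
  tq2 : t * q2 = q2 * t
  tq1 : t * q1 = q1 * q2 * t
  d3 : (r * s) ^ 3 = 1
  kz : φ (t * (r * s) * t * (r * s)) = 1
  nz : t * (r * s) * t * (r * s) ≠ 1

section

variable {ι : Type} [Fintype ι] [DecidableEq ι] {F : Type u} [Field F] {G : Type v} [Group G]
  {m : G →* GL ι F} {φ : G →* Perm (Fin 6)}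

theorem conj_of (h : Cov m φ) (hc : Nat.card φ.ker = 3) {a b g : G} (ha : a * a = 1) (hb : b * b = 1)
    (hg : φ g * φ a = φ b * φ g) : g * a = b * g := by
  have h1 := h.inv_conj hc (g := g) ha hb (by rw [hg]; group)
  calc g * a = g * a * g⁻¹ * g := by group
    _ = b * g := by rw [h1]

theorem exists_rel [Finite G] (h : Cov m φ) (hc : Nat.card φ.ker = 3) : ∃ q1 q2 r s t : G, Rel φ q1 q2 r s t := by
  obtain ⟨q1, p1, q11⟩ := h.exists_inv hc (s := c[0, 2] * c[1, 3]) (Perm.mem_alternatingGroup.2 (by decide))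
    (by decide)
  obtain ⟨q2, p2, q22⟩ := h.exists_inv hc (s := c[0, 1] * c[2, 3]) (Perm.mem_alternatingGroup.2 (by decide))
    (by decide)
  obtain ⟨r, pr, rr⟩ := h.exists_inv hc (s := c[0, 1] * c[3, 4]) (Perm.mem_alternatingGroup.2 (by decide)) (by decide)
  obtain ⟨s, ps, ss⟩ := h.exists_inv hc (s := c[1, 2] * c[3, 4]) (Perm.mem_alternatingGroup.2 (by decide)) (by decide)
  obtain ⟨t, pt, tt⟩ := h.exists_inv hc (s := c[0, 1] * c[4, 5]) (Perm.mem_alternatingGroup.2 (by decide)) (by decide)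
  have q12 : q1 * q2 = q2 * q1 := h.inv_comm hc q22 (by rw [p1, p2]; decide)
  have q00 : q1 * q2 * (q1 * q2) = 1 := by
    calc q1 * q2 * (q1 * q2) = q1 * q2 * (q2 * q1) := by rw [q12]
      _ = q1 * (q2 * q2) * q1 := by simp only [mul_assoc]
      _ = 1 := by rw [q22, mul_one, q11]
  have cj : ∀ a b : G, a * a = 1 → b * b = 1 → a * b * a * (a * b * a) = 1 := by
    intro a b ha hb
    calc a * b * a * (a * b * a) = a * b * (a * a) * b * a := by simp only [mul_assoc]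
      _ = a * (b * b) * a := by rw [ha]; simp only [mul_assoc, mul_one]
      _ = 1 := by rw [hb, mul_one, ha]
  have hinv : ∀ a : G, a * a = 1 → a⁻¹ = a := fun a ha => inv_eq_of_mul_eq_one_right ha
  have d3 : (r * s) ^ 3 = 1 := by
    have hk : φ ((r * s) ^ 3) = 1 := by rw [map_pow, map_mul, pr, ps]; decide
    have h1 := h.central hk r
    have h2 := Cov.pow_ker hk
    rw [hc] at h2
    have h3 : r * (r * s) ^ 3 * r = ((r * s) ^ 3)⁻¹ := by
      have h4 : r * (r * s) ^ 3 * r = r * (r * s) ^ 3 * r⁻¹ := by rw [hinv r rr]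
      rw [h4, ← conj_pow, ← inv_pow]
      congr 1
      rw [hinv r rr, _root_.mul_inv_rev, hinv r rr, hinv s ss]
      calc r * (r * s) * r = r * r * s * r := by simp only [mul_assoc]
        _ = s * r := by rw [rr, one_mul]
    obtain ⟨z, hz⟩ : ∃ z, z = (r * s) ^ 3 := ⟨_, rfl⟩
    rw [← hz] at h1 h2 h3 ⊢
    have h5 : z = z⁻¹ := by
      rw [← h3, mul_assoc, h1, ← mul_assoc, rr, one_mul]
    have h6 : z * z = 1 := by
      conv_lhs => rw [h5]
      rw [mul_inv_eq_one]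
      exact h5.symm
    rw [pow_succ, sq, h6, one_mul] at h2
    exact h2
  have nz : t * (r * s) * t * (r * s) ≠ 1 := by
    intro h1
    have hD : t * (r * s) * t = (r * s)⁻¹ := eq_inv_of_mul_eq_one_left h1
    have hrD : r * (r * s) * r = (r * s)⁻¹ := by
      rw [_root_.mul_inv_rev, hinv r rr, hinv s ss]
      calc r * (r * s) * r = r * r * s * r := by simp only [mul_assoc]
        _ = s * r := by rw [rr, one_mul]
    -- `t r` commutes with `r s`
    have h2 : (t * r) * (r * s) * (t * r)⁻¹ = r * s := by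
      have e1 : (t * r)⁻¹ = r * t := by rw [_root_.mul_inv_rev, hinv r rr, hinv t tt]
      rw [e1]
      calc t * r * (r * s) * (r * t) = t * (r * (r * s) * r) * t := by simp only [mul_assoc]
        _ = t * (r * s)⁻¹ * t⁻¹ := by rw [hrD, hinv t tt]
        _ = (t * (r * s) * t⁻¹)⁻¹ := by group
        _ = r * s := by rw [hinv t tt, hD, inv_inv]
    have h3 : (r * s) * (t * r)⁻¹ = (t * r)⁻¹ * (r * s) := by
      calc (r * s) * (t * r)⁻¹ = (t * r)⁻¹ * ((t * r) * (r * s) * (t * r)⁻¹) := by group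
        _ = _ := by rw [h2]
    refine h.nc (by rw [hc]) (x := r * s) (y := (t * r)⁻¹) ?_ ?_ h3
    · rw [map_mul, pr, ps]; decide
    · rw [map_inv, map_mul, pt, pr]; decide
  refine ⟨q1, q2, r, s, t, ⟨p1, p2, pr, ps, pt, q11, q22, rr, ss, tt, q12, ?_, ?_, ?_, ?_, ?_, ?_, d3, ?_, nz⟩⟩
  · exact conj_of h hc q11 q22 (by rw [map_mul, pr, ps, p1, p2]; decide)
  · exact conj_of h hc q22 q00 (by rw [map_mul, map_mul, pr, ps, p1, p2]; decide)
  · exact h.inv_unique hc (by simp only [map_mul, pr, p2]; decide) (cj r q2 rr q22) (cj q2 r q22 rr)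
  · exact h.inv_unique hc (by simp only [map_mul, pr, p2, p1, ps]; decide) (cj r (q1 * q2) rr q00)
      (cj q1 (r * s * r) q11 (cj r s rr ss))
  · exact conj_of h hc q22 q22 (by rw [pt, p2]; decide)
  · exact conj_of h hc q11 q00 (by rw [map_mul, pt, p2, p1]; decide)
  · simp only [map_mul, pt, pr, ps]; decide

end

/-! ### the stabiliser of `5` -/

set_option maxRecDepth 10000 in
theorem stab_dec : ∀ x : Perm (Fin 6), x 5 = 5 → x 4 = 4 → Perm.sign x = 1 → ∃ i j : Fin 2, ∃ k : Fin 3,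
    x = (c[0, 2] * c[1, 3]) ^ (i : ℕ) * (c[0, 1] * c[2, 3]) ^ (j : ℕ) *
      (c[0, 1] * c[3, 4] * (c[1, 2] * c[3, 4])) ^ (k : ℕ) := by decide

section

variable {G : Type v} [Group G] {φ : G →* Perm (Fin 6)} {q1 q2 r s t : G}

/-- the elements moving `4` to `j` -/
def hj (q1 q2 r : G) : Fin 6 → G := ![q1 * q2 * r, q1 * r, q2 * r, r, 1, 1]

/-- the elements moving `5` to `i` -/
def gi (q1 q2 r t : G) : Fin 6 → G := ![q1 * q2 * r * t, q1 * r * t, q2 * r * t, r * t, t, 1]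

theorem phi_hj (R : Rel φ q1 q2 r s t) {j : Fin 6} (hj5 : j ≠ 5) : φ (hj q1 q2 r j) 4 = j := by
  fin_cases j
  · change φ (q1 * q2 * r) 4 = 0
    rw [map_mul, map_mul, R.p1, R.p2, R.pr]; decide
  · change φ (q1 * r) 4 = 1
    rw [map_mul, R.p1, R.pr]; decide
  · change φ (q2 * r) 4 = 2
    rw [map_mul, R.p2, R.pr]; decide
  · change φ r 4 = 3
    rw [R.pr]; decide
  · change φ 1 4 = 4
    rw [map_one]; decide
  · exact absurd rfl hj5

theorem phi_hj_five (R : Rel φ q1 q2 r s t) (j : Fin 6) : φ (hj q1 q2 r j) 5 = 5 := by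
  fin_cases j
  · change φ (q1 * q2 * r) 5 = 5
    rw [map_mul, map_mul, R.p1, R.p2, R.pr]; decide
  · change φ (q1 * r) 5 = 5
    rw [map_mul, R.p1, R.pr]; decide
  · change φ (q2 * r) 5 = 5
    rw [map_mul, R.p2, R.pr]; decide
  · change φ r 5 = 5
    rw [R.pr]; decide
  · change φ 1 5 = 5
    rw [map_one]; decide
  · change φ 1 5 = 5
    rw [map_one]; decide

theorem phi_gi (R : Rel φ q1 q2 r s t) (i : Fin 6) : φ (gi q1 q2 r t i) 5 = i := by
  fin_cases i
  · change φ (q1 * q2 * r * t) 5 = 0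
    rw [map_mul, map_mul, map_mul, R.p1, R.p2, R.pr, R.pt]; decide
  · change φ (q1 * r * t) 5 = 1
    rw [map_mul, map_mul, R.p1, R.pr, R.pt]; decide
  · change φ (q2 * r * t) 5 = 2
    rw [map_mul, map_mul, R.p2, R.pr, R.pt]; decide
  · change φ (r * t) 5 = 3
    rw [map_mul, R.pr, R.pt]; decide
  · change φ t 5 = 4
    rw [R.pt]; decide
  · change φ 1 5 = 5
    rw [map_one]; decide

theorem mem_of_fix (R : Rel φ q1 q2 r s t) (hev : ∀ g, Perm.sign (φ g) = 1) {Y : Subgroup G} (hk : φ.ker ≤ Y)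
    (h1 : q1 ∈ Y) (h2 : q2 ∈ Y) (hr : r ∈ Y) (hs : s ∈ Y) {g : G} (hg : φ g 5 = 5) : g ∈ Y := by
  have hjY : ∀ j, hj q1 q2 r j ∈ Y := by
    intro j
    fin_cases j
    · exact mul_mem (mul_mem h1 h2) hr
    · exact mul_mem h1 hr
    · exact mul_mem h2 hr
    · exact hr
    · exact one_mem _
    · exact one_mem _
  have h4 : φ g 4 ≠ 5 := by
    intro h4
    rw [← hg] at h4
    exact absurd ((φ g).injective h4) (by decide)
  set b := (hj q1 q2 r (φ g 4))⁻¹ * g with hb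
  have hb5 : φ b 5 = 5 := by
    rw [hb, map_mul, map_inv, Perm.mul_apply, hg, Perm.inv_eq_iff_eq]
    exact (phi_hj_five R _).symm
  have hb4 : φ b 4 = 4 := by
    rw [hb, map_mul, map_inv, Perm.mul_apply, Perm.inv_eq_iff_eq]
    exact (phi_hj R h4).symm
  obtain ⟨i, j, k, hx⟩ := stab_dec _ hb5 hb4 (hev b)
  set y := q1 ^ (i : ℕ) * q2 ^ (j : ℕ) * (r * s) ^ (k : ℕ) with hy
  have hyY : y ∈ Y := mul_mem (mul_mem (pow_mem h1 _) (pow_mem h2 _)) (pow_mem (mul_mem hr hs) _)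
  have hyx : φ y = φ b := by
    rw [hx, hy, map_mul, map_mul, map_pow, map_pow, map_pow, map_mul, R.p1, R.p2, R.pr, R.ps]
  have hz : b * y⁻¹ ∈ Y := hk (by rw [MonoidHom.mem_ker, map_mul, map_inv, hyx, mul_inv_cancel])
  have e : g = hj q1 q2 r (φ g 4) * (b * y⁻¹ * y) := by rw [hb]; group
  rw [e]
  exact mul_mem (hjY _) (mul_mem hz hyY)

end

end Cfsg.Agent.H861.SixT
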