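import Cfsg.Agent.H861.SixT.Rel

/-!
# `3.A₆` in characteristic two: five vectors (helper861)

`v` fixed by `q₁, q₂` with `r s v = κ v`, `κ³ = 1`; `v₃ = r v`, `v₂ = q₂ v₃`, `v₁ = q₁ v₃`, `v₀ = q₁ q₂ v₃`.

* `Bas` : such a vector; the action of `q₁, q₂, r, r s` on the five vectors;
* `Np μ u` : `u, r u` span a natural module of the group generated by `q₁, q₂, r, s`;
* `P2 = v₀ + v₁ + v₂ + v₃`, `P3 = κ² v₀ + κ v₁ + v₂`, `NN = v + P2` (`κ = 1`);
* `np_P2`, `np_self`, `P3_fix`, `NN_fix`.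
-/

set_option autoImplicit false
set_option linter.unusedSectionVars false

namespace Cfsg.Agent.H861.SixT

open Equiv

universe u v

variable {G : Type v} [Group G] {φ : G →* Perm (Fin 6)} {q1 q2 r s t : G} {F V : Type*} [Field F] [CharP F 2]
  [AddCommGroup V] [Module F V] {ρ : G →* Module.End F V}

theorem rm (ρ : G →* Module.End F V) (a b : G) (v : V) : ρ (a * b) v = ρ a (ρ b v) := by
  rw [map_mul]; rfl

theorem ro (ρ : G →* Module.End F V) (v : V) : ρ 1 v = v := by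
  rw [map_one]; rfl

/-- an eigenvector -/
structure Bas (ρ : G →* Module.End F V) (q1 q2 r s : G) (κ : F) (v : V) : Prop where
  a1 : ρ q1 v = v
  a2 : ρ q2 v = v
  ad : ρ (r * s) v = κ • v
  cube : κ ^ 3 = 1

variable {κ : F} {v : V}

theorem Rel.rsr (R : Rel φ q1 q2 r s t) : r * s * r = r * ((r * s) * (r * s)) := by
  have h1 : (r * s) * (r * s) = s * r := by
    have h2 : (r * s) * ((r * s) * (r * s)) = 1 := by
      have := R.d3
      rwa [pow_succ, sq, mul_assoc] at this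
    have h3 : (r * s) * (s * r) = 1 := by
      calc (r * s) * (s * r) = r * (s * s) * r := by simp only [mul_assoc]
        _ = 1 := by rw [R.ss, mul_one, R.rr]
    exact mul_left_cancel (h2.trans h3.symm)
  rw [h1, mul_assoc]

theorem Rel.s_eq (R : Rel φ q1 q2 r s t) : s = r * (r * s) := by
  rw [← mul_assoc, R.rr, one_mul]

section act

variable (R : Rel φ q1 q2 r s t) (B : Bas ρ q1 q2 r s κ v)
include R B

theorem r3 : ρ r (ρ r v) = v := by rw [← rm, R.rr, ro]

theorem d3' : ρ (r * s) (ρ r v) = κ ^ 2 • ρ r v := by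
  rw [← rm, R.rsr, rm, rm, B.ad, map_smul, B.ad, smul_smul, map_smul, sq]

theorem r2 : ρ r (ρ q2 (ρ r v)) = ρ q2 (ρ r v) := by
  have h1 : ρ r (ρ q2 (ρ r v)) = ρ (r * q2 * r) v := by rw [rm, rm]
  rw [h1, R.rq2, rm, rm, B.a2]

theorem r0 : ρ r (ρ q1 (ρ q2 (ρ r v))) = κ ^ 2 • ρ q1 (ρ r v) := by
  have h1 : ρ r (ρ q1 (ρ q2 (ρ r v))) = ρ (r * (q1 * q2) * r) v := by rw [rm, rm, rm]
  rw [h1, R.rq0, rm, rm, B.a1, R.rsr, rm, rm, B.ad, map_smul, B.ad, smul_smul, map_smul, map_smul, sq]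

theorem r1 : ρ r (ρ q1 (ρ r v)) = κ • ρ q1 (ρ q2 (ρ r v)) := by
  have h1 := congrArg (ρ r) (r0 R B)
  rw [map_smul, ← rm ρ r r, R.rr, ro] at h1
  rw [h1, smul_smul, ← pow_succ', B.cube, one_smul]

theorem q11' (w : V) : ρ q1 (ρ q1 w) = w := by rw [← rm, R.q11, ro]

theorem q22' (w : V) : ρ q2 (ρ q2 w) = w := by rw [← rm, R.q22, ro]

theorem q21' (w : V) : ρ q2 (ρ q1 w) = ρ q1 (ρ q2 w) := by rw [← rm, ← R.q12, rm]

theorem dd2 : ρ (r * s) (ρ q2 (ρ r v)) = κ ^ 2 • ρ q1 (ρ q2 (ρ r v)) := by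
  rw [← rm, R.dq2, rm, d3' R B, map_smul, rm]

theorem dd1 : ρ (r * s) (ρ q1 (ρ r v)) = κ ^ 2 • ρ q2 (ρ r v) := by
  rw [← rm, R.dq1, rm, d3' R B, map_smul]

theorem dd0 : ρ (r * s) (ρ q1 (ρ q2 (ρ r v))) = κ ^ 2 • ρ q1 (ρ r v) := by
  rw [← rm, R.dq1, rm, dd2 R B, map_smul, q21' R B, q22' R B]

end act

/-- a natural module -/
structure Np (ρ : G →* Module.End F V) (q1 q2 r s : G) (μ : F) (u : V) : Prop where
  ne : u ≠ 0
  bas : Bas ρ q1 q2 r s μ u
  b1 : ρ q1 (ρ r u) = ρ r u + μ • u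
  b2 : ρ q2 (ρ r u) = ρ r u + u

/-- `v₀ + v₁ + v₂ + v₃` -/
def P2 (ρ : G →* Module.End F V) (q1 q2 r : G) (v : V) : V :=
  ρ q1 (ρ q2 (ρ r v)) + ρ q1 (ρ r v) + ρ q2 (ρ r v) + ρ r v

/-- `κ² v₀ + κ v₁ + v₂` -/
def P3 (ρ : G →* Module.End F V) (q1 q2 r : G) (κ : F) (v : V) : V :=
  κ ^ 2 • ρ q1 (ρ q2 (ρ r v)) + κ • ρ q1 (ρ r v) + ρ q2 (ρ r v)

section char

theorem two_F (F : Type*) [Field F] [CharP F 2] : (2 : F) = 0 := by
  have := CharP.cast_eq_zero F 2
  exact_mod_cast this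

variable (R : Rel φ q1 q2 r s t) (B : Bas ρ q1 q2 r s κ v) (hκ : κ ^ 2 + κ + 1 = 0)
include R B

/-- the natural module spanned by `P2` -/
theorem np_P2 (hκ : κ ^ 2 + κ + 1 = 0) (hne : P2 ρ q1 q2 r v ≠ 0) : Np ρ q1 q2 r s (κ ^ 2) (P2 ρ q1 q2 r v) := by
  have h2 := two_F F
  have hr : ρ r (P2 ρ q1 q2 r v) =
      κ ^ 2 • ρ q1 (ρ r v) + κ • ρ q1 (ρ q2 (ρ r v)) + ρ q2 (ρ r v) + v := by
    unfold P2
    rw [map_add, map_add, map_add, r0 R B, r1 R B, r2 R B, r3 R B]
  refine ⟨hne, ⟨?_, ?_, ?_, ?_⟩, ?_, ?_⟩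
  · unfold P2
    simp only [map_add, q11' R B, q22' R B, q21' R B]
    abel
  · unfold P2
    simp only [map_add, q11' R B, q22' R B, q21' R B]
    abel
  · unfold P2
    simp only [map_add, dd0 R B, dd1 R B, dd2 R B, d3' R B]
    module
  · rw [← pow_mul, mul_comm, pow_mul, B.cube, one_pow]
  · rw [hr]
    unfold P2
    simp only [map_add, map_smul, q11' R B, q22' R B, q21' R B, B.a1]
    match_scalars
    all_goals first
    | ring1
    | linear_combination -hκ + κ * h2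
    | linear_combination -hκ + h2
    | linear_combination -κ ^ 2 * h2
  · rw [hr]
    unfold P2
    simp only [map_add, map_smul, q11' R B, q22' R B, q21' R B, B.a2]
    match_scalars
    all_goals first
    | ring1
    | linear_combination -hκ + κ * h2
    | linear_combination -hκ + h2
    | linear_combination -κ ^ 2 * h2
    | linear_combination -hκ + κ ^ 2 * h2
    | linear_combination hκ - κ * h2
    | linear_combination hκ - h2
    | linear_combination hκ - κ ^ 2 * h2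
    | linear_combination hκ - (κ + 1) * h2
    | linear_combination -hκ + (κ ^ 2 + κ) * h2
    | linear_combination -hκ + (κ + 1) * h2
    | linear_combination -hκ + (κ ^ 2 + κ + 1) * h2
    | linear_combination -h2

/-- the vector itself -/
theorem np_self (hκ : κ ^ 2 + κ + 1 = 0) (hne : v ≠ 0) (h0 : P2 ρ q1 q2 r v = 0) (h3 : P3 ρ q1 q2 r κ v = 0) :
    Np ρ q1 q2 r s κ v := by
  have h2 := two_F F
  have hr : ρ r (P2 ρ q1 q2 r v) =
      κ ^ 2 • ρ q1 (ρ r v) + κ • ρ q1 (ρ q2 (ρ r v)) + ρ q2 (ρ r v) + v := by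
    unfold P2
    rw [map_add, map_add, map_add, r0 R B, r1 R B, r2 R B, r3 R B]
  rw [h0, map_zero] at hr
  unfold P2 at h0
  unfold P3 at h3
  have hc := B.cube
  refine ⟨hne, B, ?_, ?_⟩
  · calc ρ q1 (ρ r v) = ρ r v + κ • v + ((ρ q1 (ρ q2 (ρ r v)) + ρ q1 (ρ r v) + ρ q2 (ρ r v) + ρ r v) +
          κ • (κ ^ 2 • ρ q1 (ρ r v) + κ • ρ q1 (ρ q2 (ρ r v)) + ρ q2 (ρ r v) + v) +
          κ ^ 2 • (κ ^ 2 • ρ q1 (ρ q2 (ρ r v)) + κ • ρ q1 (ρ r v) + ρ q2 (ρ r v))) := by
          match_scalars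
          · linear_combination -κ ^ 3 * h2
          · linear_combination -h2
          · linear_combination -κ * h2
          · linear_combination -hκ - κ * hc
          · linear_combination -hκ
      _ = ρ r v + κ • v := by rw [h0, ← hr, h3, smul_zero, smul_zero, add_zero, add_zero, add_zero]
  · calc ρ q2 (ρ r v) = ρ r v + v + ((ρ q1 (ρ q2 (ρ r v)) + ρ q1 (ρ r v) + ρ q2 (ρ r v) + ρ r v) +
          (κ ^ 2 • ρ q1 (ρ r v) + κ • ρ q1 (ρ q2 (ρ r v)) + ρ q2 (ρ r v) + v) +
          (κ ^ 2 • ρ q1 (ρ q2 (ρ r v)) + κ • ρ q1 (ρ r v) + ρ q2 (ρ r v))) := by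
          match_scalars
          · linear_combination -h2
          · linear_combination -h2
          · linear_combination -h2
          · linear_combination -hκ
          · linear_combination -hκ
      _ = ρ r v + v := by rw [h0, ← hr, h3, add_zero, add_zero, add_zero]

/-- `P3` is fixed if `P2 = 0` -/
theorem P3_fix (hκ : κ ^ 2 + κ + 1 = 0) (h0 : P2 ρ q1 q2 r v = 0) :
    ρ q1 (P3 ρ q1 q2 r κ v) = P3 ρ q1 q2 r κ v ∧ ρ q2 (P3 ρ q1 q2 r κ v) = P3 ρ q1 q2 r κ v ∧
      ρ r (P3 ρ q1 q2 r κ v) = P3 ρ q1 q2 r κ v ∧ ρ (r * s) (P3 ρ q1 q2 r κ v) = P3 ρ q1 q2 r κ v := by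
  have h2 := two_F F
  have hc := B.cube
  unfold P2 at h0
  refine ⟨?_, ?_, ?_, ?_⟩
  · have e : ρ q1 (P3 ρ q1 q2 r κ v) = P3 ρ q1 q2 r κ v + κ • (0 : V) := by
      rw [← h0]
      unfold P3
      simp only [map_add, map_smul, q11' R B, q22' R B, q21' R B]
      match_scalars
      all_goals first
      | ring1
      | linear_combination -hκ + κ * h2
      | linear_combination -hκ + h2
      | linear_combination -κ ^ 2 * h2
      | linear_combination -hκ + κ ^ 2 * h2
      | linear_combination hκ - κ * h2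
      | linear_combination hκ - h2
      | linear_combination hκ - κ ^ 2 * h2
      | linear_combination hκ - (κ + 1) * h2
      | linear_combination -hκ + (κ ^ 2 + κ) * h2
      | linear_combination -hκ + (κ + 1) * h2
      | linear_combination -hκ + (κ ^ 2 + κ + 1) * h2
      | linear_combination -h2
      | linear_combination -κ * h2
    rw [e, smul_zero, add_zero]
  · have e : ρ q2 (P3 ρ q1 q2 r κ v) = P3 ρ q1 q2 r κ v + (0 : V) := by
      rw [← h0]
      unfold P3
      simp only [map_add, map_smul, q11' R B, q22' R B, q21' R B]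
      match_scalars
      all_goals first
      | ring1
      | linear_combination -hκ + κ * h2
      | linear_combination -hκ + h2
      | linear_combination -κ ^ 2 * h2
      | linear_combination -hκ + κ ^ 2 * h2
      | linear_combination hκ - κ * h2
      | linear_combination hκ - h2
      | linear_combination hκ - κ ^ 2 * h2
      | linear_combination hκ - (κ + 1) * h2
      | linear_combination -hκ + (κ ^ 2 + κ) * h2
      | linear_combination -hκ + (κ + 1) * h2
      | linear_combination -hκ + (κ ^ 2 + κ + 1) * h2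
      | linear_combination -h2
    rw [e, add_zero]
  · unfold P3
    simp only [map_add, map_smul, r0 R B, r1 R B, r2 R B]
    match_scalars
    all_goals first
    | ring1
    | linear_combination κ * hc
    | linear_combination hc
  · unfold P3
    simp only [map_add, map_smul, dd0 R B, dd1 R B, dd2 R B]
    match_scalars
    all_goals first
    | ring1
    | linear_combination κ * hc
    | linear_combination hc

/-- `v + P2` is fixed if `κ = 1` -/
theorem NN_fix (h1 : κ = 1) :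
    ρ q1 (v + P2 ρ q1 q2 r v) = v + P2 ρ q1 q2 r v ∧ ρ q2 (v + P2 ρ q1 q2 r v) = v + P2 ρ q1 q2 r v ∧
      ρ r (v + P2 ρ q1 q2 r v) = v + P2 ρ q1 q2 r v ∧ ρ (r * s) (v + P2 ρ q1 q2 r v) = v + P2 ρ q1 q2 r v := by
  subst h1
  unfold P2
  refine ⟨?_, ?_, ?_, ?_⟩
  · simp only [map_add, q11' R B, q22' R B, q21' R B, B.a1]
    abel
  · simp only [map_add, q11' R B, q22' R B, q21' R B, B.a2]
    abel
  · simp only [map_add, r0 R B, r1 R B, r2 R B, r3 R B]
    module
  · simp only [map_add, dd0 R B, dd1 R B, dd2 R B, d3' R B, B.ad]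
    module

end char

end Cfsg.Agent.H861.SixT
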